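import Cfsg.Agent.H576.E8L.Io
import Cfsg.Agent.H238.E8.Wt
import Cfsg.Agent.H879.E83.GThree

/-!
# S5925: the element `h = ph1 (Yd) ph2 (Yd)` is diagonal; averaging over `<h>` is the projection on `Supp` (helper576)
-/

set_option autoImplicit false
set_option linter.unusedSectionVars false
set_option linter.unusedVariables false
set_option linter.style.longLine false
set_option linter.unusedSimpArgs false

namespace Cfsg.Agent.H576.E8L

open Matrix Cfsg Cfsg.Lie Cfsg.Agent.ChevalleyStructure Cfsg.Agent.ChevalleyStructure.Elts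
open Cfsg.Agent.ChevalleyStructure.HMatDiagAll (expo)
open Cfsg.Agent.H992.E8X hiding e8T
open Cfsg.Agent.H238.E8
open Cfsg.Agent.H942.E8Tab Cfsg.Agent.H942.CB Cfsg.Agent.H129.TorusChar Cfsg.Agent.Nodes.RGDChev
open Cfsg.Agent.ChevalleyStructure.CoxeterGeomTypes Cfsg.Agent.KFacts.RgdChevCoord

/-- the exponent of `h` on the root vector `e_s` -/
def mx (s : ℕ) : ℤ :=
  expo chevE8 (rt1 1 2) s + 3 * expo chevE8 (rt1 2 3) s + 6 * expo chevE8 (rt1 3 4) s +
    (expo chevE8 (rt2 1 2) s + 3 * expo chevE8 (rt2 2 3) s + 6 * expo chevE8 (rt2 3 4) s)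

theorem mx_supp : ∀ s : Fin 240, mx s.val % 5 = 0 ↔
    (∃ i j : Fin 5, i ≠ j ∧ s.val = w0 i j) ∨ (∃ i j : Fin 5, i ≠ j ∧ s.val = w1 i j) := by
  decide +kernel

section
variable {K : Type} [Field K]

/-- the diagonal entries of `Yd` -/
def dw (w : Kˣ) : Fin 5 → Kˣ := ![1, w, w ^ 2, w ^ 3, w ^ 4]

theorem dw_prod {w : Kˣ} (h : w ^ 5 = 1) : ∏ i, dw w i = 1 := by
  rw [Fin.prod_univ_five]
  show 1 * w * w ^ 2 * w ^ 3 * w ^ 4 = 1
  have : 1 * w * w ^ 2 * w ^ 3 * w ^ 4 = (w ^ 5) ^ 2 := by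
    rw [one_mul, ← pow_succ', ← pow_add, ← pow_add, ← pow_mul]
  rw [this, h, one_pow]

/-- `Yd` -/
def Yd (w : Kˣ) (h : w ^ 5 = 1) : SpecialLinearGroup (Fin 5) K := dg (dw w) (dw_prod h)

/-- `h = ph1 (Yd) ph2 (Yd)` -/
noncomputable def YY (w : Kˣ) (h : w ^ 5 = 1) : ↥(chevE8.group K) := ph1 K (Yd w h) * ph2 K (Yd w h)

theorem wv_dw (rt : Fin 5 → Fin 5 → ℕ) (w : Kˣ) (s : ℕ) : wv rt (dw w) s =
    w ^ (expo chevE8 (rt 1 2) s + 3 * expo chevE8 (rt 2 3) s + 6 * expo chevE8 (rt 3 4) s) := by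
  unfold wv
  have h0 : pp (dw w) 0 = 1 := rfl
  have h1 : pp (dw w) 1 = w := one_mul w
  have h2 : pp (dw w) 2 = w ^ (3 : ℤ) := by
    show 1 * w * w ^ 2 = w ^ (3 : ℤ)
    rw [one_mul, ← pow_succ']; norm_cast
  have h3 : pp (dw w) 3 = w ^ (6 : ℤ) := by
    show 1 * w * w ^ 2 * w ^ 3 = w ^ (6 : ℤ)
    rw [one_mul, ← pow_succ', ← pow_add]; norm_cast
  rw [h0, h1, h2, h3, _root_.one_zpow, one_mul, ← _root_.zpow_mul, ← _root_.zpow_mul, ← _root_.zpow_add,
    ← _root_.zpow_add]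

theorem YY_mat (w : Kˣ) (h : w ^ 5 = 1) :
    (((YY w h : ↥(chevE8.group K)) : GL chevE8.Idx K) : Matrix chevE8.Idx chevE8.Idx K) =
      Matrix.diagonal (Sum.elim (fun _ => (1 : K)) (fun s : Fin chevE8.nroots => ((w ^ mx s.val : Kˣ) : K))) := by
  have a1 := ph1_dg (dw w) (dw_prod h)
  have a2 := ph2_dg (dw w) (dw_prod h)
  have hY : YY w h ∈ TT chevE8 K := mul_mem a1.1 a2.1
  rw [TT_diag' e8T hY]
  congr 2
  funext s
  have e : cX e8T (YY w h) (vec chevE8 8 s.val) = _ := cX_mul e8T a1.1 a2.1 (vec chevE8 8 s.val)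
  refine e.trans ?_
  have b1 : cX e8T (ph1 K (dg (dw w) (dw_prod h))) (vec chevE8 8 s.val) = _ := a1.2 s
  have b2 : cX e8T (ph2 K (dg (dw w) (dw_prod h))) (vec chevE8 8 s.val) = _ := a2.2 s
  rw [b1, b2, wv_dw, wv_dw, ← Units.val_mul, ← _root_.zpow_add]
  rfl

theorem wz {w : Kˣ} (h : w ^ 5 = 1) (m : ℤ) : w ^ m = w ^ (m % 5) := by
  conv_lhs => rw [← Int.emod_add_mul_ediv m 5]
  rw [_root_.zpow_add, _root_.zpow_mul]
  have : w ^ (5 : ℤ) = 1 := by exact_mod_cast h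
  rw [this, _root_.one_zpow, mul_one]

/-- the entry of the diagonal -/
def yv (w : Kˣ) : chevE8.Idx → K :=
  Sum.elim (fun _ => (1 : K)) (fun s : Fin chevE8.nroots => ((w ^ mx s.val : Kˣ) : K))

theorem yv_pow5 {w : Kˣ} (h : w ^ 5 = 1) (a : chevE8.Idx) : yv w a ^ 5 = 1 := by
  rcases a with i | s
  · exact one_pow 5
  · show ((w ^ mx s.val : Kˣ) : K) ^ 5 = 1
    rw [← Units.val_pow_eq_pow_val]
    have : (w ^ mx s.val) ^ 5 = 1 := by
      have e : (w ^ mx s.val) ^ 5 = (w ^ mx s.val) ^ (5 : ℤ) := by norm_cast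
      rw [e, ← _root_.zpow_mul, mul_comm, _root_.zpow_mul]
      have : w ^ (5 : ℤ) = 1 := by exact_mod_cast h
      rw [this, _root_.one_zpow]
    rw [this, Units.val_one]

/-- the support -/
def InS : chevE8.Idx → Prop :=
  Sum.elim (fun _ => True) (fun s => (∃ i j : Fin 5, i ≠ j ∧ s.val = w0 i j) ∨ (∃ i j : Fin 5, i ≠ j ∧ s.val = w1 i j))

theorem yv_eq_one {w : Kˣ} (h : w ^ 5 = 1) (a : chevE8.Idx) (ha : InS a) : yv w a = 1 := by
  rcases a with i | s
  · rfl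
  · show ((w ^ mx s.val : Kˣ) : K) = 1
    rw [wz h, (mx_supp s).2 ha, zpow_zero, Units.val_one]

theorem yv_ne_one {w : Kˣ} (h : w ^ 5 = 1) (h1 : w ≠ 1) (a : chevE8.Idx) (ha : ¬ InS a) : yv w a ≠ 1 := by
  rcases a with i | s
  · exact absurd trivial ha
  · intro e
    have e1 : w ^ mx s.val = 1 := Units.ext e
    apply ha
    show _ ∨ _
    refine (mx_supp s).1 ?_
    have h5 : orderOf w = 5 := by
      haveI : Fact (Nat.Prime 5) := ⟨by norm_num⟩
      exact orderOf_eq_prime h h1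
    have := orderOf_dvd_iff_zpow_eq_one.2 e1
    rw [h5] at this
    exact Int.emod_eq_zero_of_dvd this

theorem supp_iff {v : chevE8.Idx → K} : Supp v ↔ ∀ a, ¬ InS a → v a = 0 := by
  constructor
  · intro h a ha
    rcases a with i | s
    · exact absurd trivial ha
    · refine h s (fun i j hij e => ha (Or.inl ⟨i, j, hij, e⟩)) (fun i j hij e => ha (Or.inr ⟨i, j, hij, e⟩))
  · intro h u h0 h1
    refine h _ ?_
    rintro (⟨i, j, hij, e⟩ | ⟨i, j, hij, e⟩)
    · exact h0 i j hij e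
    · exact h1 i j hij e

open scoped Classical in
/-- the projection on the support -/
noncomputable def prj (v : chevE8.Idx → K) : chevE8.Idx → K := fun a => if InS a then v a else 0

theorem supp_prj (v : chevE8.Idx → K) : Supp (prj v) := by
  rw [supp_iff]
  intro a ha
  exact if_neg ha

theorem prj_of_supp {v : chevE8.Idx → K} (hv : Supp v) : prj v = v := by
  funext a
  unfold prj
  split_ifs with h
  · rfl
  · exact (supp_iff.1 hv a h).symm

/-- the action of `h` on `L` -/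
noncomputable def Ym (w : Kˣ) (h : w ^ 5 = 1) : Module.End K (chevE8.Idx → K) :=
  Matrix.mulVecLin (((YY w h : ↥(chevE8.group K)) : GL chevE8.Idx K) : Matrix chevE8.Idx chevE8.Idx K)

theorem Ym_apply (w : Kˣ) (h : w ^ 5 = 1) (v : chevE8.Idx → K) (a : chevE8.Idx) : Ym w h v a = yv w a * v a := by
  unfold Ym
  rw [Matrix.mulVecLin_apply, YY_mat, Matrix.mulVec_diagonal]
  rfl

theorem Ym_pow (w : Kˣ) (h : w ^ 5 = 1) (n : ℕ) (v : chevE8.Idx → K) (a : chevE8.Idx) :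
    (Ym w h ^ n) v a = yv w a ^ n * v a := by
  induction n generalizing v with
  | zero => simp
  | succ n ih => rw [pow_succ, Module.End.mul_apply, ih, Ym_apply, pow_succ, mul_assoc]

theorem Ym_fix (w : Kˣ) (h : w ^ 5 = 1) {v : chevE8.Idx → K} (hv : Supp v) : Ym w h v = v := by
  funext a
  rw [Ym_apply]
  by_cases ha : InS a
  · rw [yv_eq_one h a ha, one_mul]
  · rw [supp_iff.1 hv a ha, mul_zero]

theorem supp_of_fix {w : Kˣ} (h : w ^ 5 = 1) (h1 : w ≠ 1) {v : chevE8.Idx → K} (hv : Ym w h v = v) : Supp v := by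
  rw [supp_iff]
  intro a ha
  have e := congrFun hv a
  rw [Ym_apply] at e
  have e2 : (yv w a - 1) * v a = 0 := by rw [sub_mul, e, one_mul, sub_self]
  exact (mul_eq_zero.1 e2).resolve_left (sub_ne_zero.2 (yv_ne_one h h1 a ha))

open Cfsg.Agent.H879.E83 (ey sY)

theorem ey_prj (h3 : (3 : K) = 0) {w : Kˣ} (h : w ^ 5 = 1) (h1 : w ≠ 1) (v : chevE8.Idx → K) :
    ey (Ym w h) v = prj v := by
  funext a
  have e : ey (Ym w h) v a = - ((1 + yv w a + yv w a ^ 2 + yv w a ^ 3 + yv w a ^ 4) * v a) := by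
    unfold ey sY
    simp only [LinearMap.neg_apply, LinearMap.add_apply, Pi.neg_apply, Pi.add_apply, Ym_pow, Ym_apply,
      Module.End.one_apply]
    ring
  rw [e]
  unfold prj
  split_ifs with ha
  · rw [yv_eq_one h a ha]
    linear_combination (-2 * v a) * h3
  · have n1 := yv_ne_one h h1 a ha
    have n5 := yv_pow5 h a
    have : 1 + yv w a + yv w a ^ 2 + yv w a ^ 3 + yv w a ^ 4 = 0 := by
      have e2 : (yv w a - 1) * (1 + yv w a + yv w a ^ 2 + yv w a ^ 3 + yv w a ^ 4) = 0 := by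
        linear_combination n5
      exact (mul_eq_zero.1 e2).resolve_left (sub_ne_zero.2 n1)
    rw [this, zero_mul, neg_zero]

/-- `C_L(h)` is the image of `io` -/
theorem fix_iff [CharP K 3] {w : Kˣ} (h : w ^ 5 = 1) (h1 : w ≠ 1) (v : chevE8.Idx → K) :
    Ym w h v = v ↔ ∃ A0 A1 : Matrix (Fin 5) (Fin 5) K, A0.trace = 0 ∧ A1.trace = 0 ∧ io K (A0, A1) = v := by
  constructor
  · intro hv
    exact io_surj (supp_of_fix h h1 hv)
  · rintro ⟨A0, A1, -, -, rfl⟩
    exact Ym_fix w h (supp_io _)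

end

end Cfsg.Agent.H576.E8L
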