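import Cfsg.Agent.H576.E8L.Proj

/-!
# S5925, box G: the frame `GFrame` of helper879 in `E₈` (helper576)
-/

set_option autoImplicit false
set_option linter.unusedSectionVars false
set_option linter.unusedVariables false
set_option linter.style.longLine false
set_option linter.unusedSimpArgs false

namespace Cfsg.Agent.H576.E8L

open Matrix Cfsg Cfsg.Lie Cfsg.Agent.ChevalleyStructure Cfsg.Agent.ChevalleyStructure.Elts
open Cfsg.Agent.H992.E8X Cfsg.Agent.H238.E8
open Cfsg.Agent.H879.E83

/-! ## induction on the 48 basis vectors -/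

section ext
variable {K : Type*} [Field K]

/-- linear maps agreeing on the off-diagonal units and on `E_bb - E_(b+1)(b+1)` agree on traceless matrices -/
theorem ext24 {V : Type*} [AddCommGroup V] [Module K V] (f : Mt K →ₗ[K] V)
    (ho : ∀ a b : Fin 5, a ≠ b → f (Matrix.single a b 1) = 0)
    (hd : ∀ b : Fin 4, f (Matrix.single b.castSucc b.castSucc 1 - Matrix.single b.succ b.succ 1) = 0) (A : Mt K)
    (hA : A.trace = 0) : f A = 0 := by
  have hdd : ∀ a : Fin 5, f (Matrix.single a a 1) = f (Matrix.single 0 0 1) := by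
    have h0 := hd 0
    have h1 := hd 1
    have h2 := hd 2
    have h3 := hd 3
    rw [map_sub, sub_eq_zero] at h0 h1 h2 h3
    intro a
    fin_cases a
    · rfl
    · exact h0.symm
    · exact h1.symm.trans h0.symm
    · exact h2.symm.trans (h1.symm.trans h0.symm)
    · exact h3.symm.trans (h2.symm.trans (h1.symm.trans h0.symm))
  rw [Matrix.matrix_eq_sum_single A, map_sum]
  have e : ∀ i : Fin 5, f (∑ j, Matrix.single i j (A i j)) = A i i • f (Matrix.single 0 0 1) := by
    intro i
    rw [map_sum, Finset.sum_eq_single i]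
    · have : Matrix.single i i (A i i) = A i i • Matrix.single i i (1 : K) := by
        rw [Matrix.smul_single, smul_eq_mul, mul_one]
      rw [this, map_smul, hdd]
    · intro j _ hj
      have : Matrix.single i j (A i j) = A i j • Matrix.single i j (1 : K) := by
        rw [Matrix.smul_single, smul_eq_mul, mul_one]
      rw [this, map_smul, ho i j hj.symm, smul_zero]
    · intro h; exact absurd (Finset.mem_univ _) h
  simp only [e]
  rw [← Finset.sum_smul]
  have : ∑ i, A i i = A.trace := rfl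
  rw [this, hA, zero_smul]

theorem ext48 {V : Type*} [AddCommGroup V] [Module K V] {f h : Mt K × Mt K →ₗ[K] V}
    (h0 : ∀ a b : Fin 5, a ≠ b → f (Matrix.single a b 1, 0) = h (Matrix.single a b 1, 0))
    (h0d : ∀ b : Fin 4, f (Matrix.single b.castSucc b.castSucc 1 - Matrix.single b.succ b.succ 1, 0) =
      h (Matrix.single b.castSucc b.castSucc 1 - Matrix.single b.succ b.succ 1, 0))
    (h1 : ∀ a b : Fin 5, a ≠ b → f (0, Matrix.single a b 1) = h (0, Matrix.single a b 1))
    (h1d : ∀ b : Fin 4, f (0, Matrix.single b.castSucc b.castSucc 1 - Matrix.single b.succ b.succ 1) =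
      h (0, Matrix.single b.castSucc b.castSucc 1 - Matrix.single b.succ b.succ 1))
    (p : Mt K × Mt K) (t0 : p.1.trace = 0) (t1 : p.2.trace = 0) : f p = h p := by
  have e0 := ext24 ((f - h).comp (LinearMap.inl K (Mt K) (Mt K)))
    (fun a b hab => by
      show (f - h) (Matrix.single a b 1, 0) = 0
      rw [LinearMap.sub_apply, h0 a b hab, sub_self])
    (fun b => by
      exact sub_eq_zero.2 (h0d b)) p.1 t0
  have e1 := ext24 ((f - h).comp (LinearMap.inr K (Mt K) (Mt K)))
    (fun a b hab => by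
      show (f - h) (0, Matrix.single a b 1) = 0
      rw [LinearMap.sub_apply, h1 a b hab, sub_self])
    (fun b => by
      exact sub_eq_zero.2 (h1d b)) p.2 t1
  have e2 : (f - h) p = 0 := by
    have : p = (p.1, 0) + (0, p.2) := by simp
    rw [this, map_add]
    have e0' : (f - h) (p.1, 0) = 0 := e0
    have e1' : (f - h) (0, p.2) = 0 := e1
    rw [e0', e1', add_zero]
  exact sub_eq_zero.1 e2

/-- the maps of the table as linear maps -/
def XPL (g : K) : Mt K × Mt K →ₗ[K] Mt K × Mt K where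
  toFun p := (XP0 g p.1 p.2, XP1 g p.1 p.2)
  map_add' p q := by
    have hc : ∀ (k : Fin 5 → K) (A B : Mt K) (a : Fin 5), cr5 k (A + B) a = cr5 k A a + cr5 k B a := by
      intro k A B a
      unfold cr5
      rw [← Finset.sum_add_distrib]
      exact Finset.sum_congr rfl fun c _ => by rw [Matrix.add_apply]; ring
    refine Prod.ext ?_ ?_
    · funext a b
      show XP0 g (p.1 + q.1) (p.2 + q.2) a b = XP0 g p.1 p.2 a b + XP0 g q.1 q.2 a b
      unfold XP0
      split_ifs
      · rw [hc, hc]; ring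
      · simp only [Matrix.add_apply]; ring
      · simp only [Matrix.add_apply]
      · rw [add_zero]
      · simp only [Matrix.add_apply]; ring
    · funext a b
      show XP1 g (p.1 + q.1) (p.2 + q.2) a b = XP1 g p.1 p.2 a b + XP1 g q.1 q.2 a b
      unfold XP1
      split_ifs
      · rw [hc, hc]; ring
      · simp only [Matrix.add_apply]
      · simp only [Matrix.add_apply]; ring
      · simp only [Matrix.add_apply]; ring
      · rw [add_zero]
  map_smul' c p := by
    have hc : ∀ (k : Fin 5 → K) (A : Mt K) (a : Fin 5), cr5 k (c • A) a = c * cr5 k A a := by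
      intro k A a
      unfold cr5
      rw [Finset.mul_sum]
      exact Finset.sum_congr rfl fun c _ => by rw [Matrix.smul_apply, smul_eq_mul]; ring
    refine Prod.ext ?_ ?_
    · funext a b
      show XP0 g (c • p.1) (c • p.2) a b = c * XP0 g p.1 p.2 a b
      unfold XP0
      split_ifs
      · rw [hc, hc]; ring
      · simp only [Matrix.smul_apply, smul_eq_mul]; ring
      · simp only [Matrix.smul_apply, smul_eq_mul]
      · rw [mul_zero]
      · simp only [Matrix.smul_apply, smul_eq_mul]; ring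
    · funext a b
      show XP1 g (c • p.1) (c • p.2) a b = c * XP1 g p.1 p.2 a b
      unfold XP1
      split_ifs
      · rw [hc, hc]; ring
      · simp only [Matrix.smul_apply, smul_eq_mul]
      · simp only [Matrix.smul_apply, smul_eq_mul]; ring
      · simp only [Matrix.smul_apply, smul_eq_mul]; ring
      · rw [mul_zero]

def XML (g : K) : Mt K × Mt K →ₗ[K] Mt K × Mt K where
  toFun p := (XM0 g p.1 p.2, XM1 g p.1 p.2)
  map_add' p q := by
    have hc : ∀ (k : Fin 5 → K) (A B : Mt K) (a : Fin 5), cr5 k (A + B) a = cr5 k A a + cr5 k B a := by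
      intro k A B a
      unfold cr5
      rw [← Finset.sum_add_distrib]
      exact Finset.sum_congr rfl fun c _ => by rw [Matrix.add_apply]; ring
    refine Prod.ext ?_ ?_
    · funext a b
      show XM0 g (p.1 + q.1) (p.2 + q.2) a b = XM0 g p.1 p.2 a b + XM0 g q.1 q.2 a b
      unfold XM0
      split_ifs
      · rw [hc, hc]; ring
      · simp only [Matrix.add_apply]; ring
      · rw [add_zero]
      · simp only [Matrix.add_apply]
      · simp only [Matrix.add_apply]; ring
    · funext a b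
      show XM1 g (p.1 + q.1) (p.2 + q.2) a b = XM1 g p.1 p.2 a b + XM1 g q.1 q.2 a b
      unfold XM1
      split_ifs
      · rw [hc, hc]; ring
      · rw [add_zero]
      · simp only [Matrix.add_apply]; ring
      · simp only [Matrix.add_apply]; ring
      · simp only [Matrix.add_apply]
  map_smul' c p := by
    have hc : ∀ (k : Fin 5 → K) (A : Mt K) (a : Fin 5), cr5 k (c • A) a = c * cr5 k A a := by
      intro k A a
      unfold cr5
      rw [Finset.mul_sum]
      exact Finset.sum_congr rfl fun c _ => by rw [Matrix.smul_apply, smul_eq_mul]; ring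
    refine Prod.ext ?_ ?_
    · funext a b
      show XM0 g (c • p.1) (c • p.2) a b = c * XM0 g p.1 p.2 a b
      unfold XM0
      split_ifs
      · rw [hc, hc]; ring
      · simp only [Matrix.smul_apply, smul_eq_mul]; ring
      · rw [mul_zero]
      · simp only [Matrix.smul_apply, smul_eq_mul]
      · simp only [Matrix.smul_apply, smul_eq_mul]; ring
    · funext a b
      show XM1 g (c • p.1) (c • p.2) a b = c * XM1 g p.1 p.2 a b
      unfold XM1
      split_ifs
      · rw [hc, hc]; ring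
      · rw [mul_zero]
      · simp only [Matrix.smul_apply, smul_eq_mul]; ring
      · simp only [Matrix.smul_apply, smul_eq_mul]; ring
      · simp only [Matrix.smul_apply, smul_eq_mul]

end ext

/-! ## the scaled embedding -/

section iota
variable {K : Type*} [Field K]

/-- scales of `W0` -/
def re0 : Fin 5 → ℕ := ![0, 15, 30, 40, 30]
/-- scales of `W1` -/
def re1 : Fin 5 → ℕ := ![0, 10, 10, 5, 0]

/-- conjugation by `diag (g ^ r)` -/
def cj (r : Fin 5 → ℕ) (g : K) : Mt K →ₗ[K] Mt K where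
  toFun A := Matrix.of fun a b => g ^ r a * A a b * (g ^ r b)⁻¹
  map_add' A B := by
    ext a b
    simp only [Matrix.of_apply, Matrix.add_apply]; ring
  map_smul' c A := by
    ext a b
    simp only [Matrix.of_apply, Matrix.smul_apply, smul_eq_mul, RingHom.id_apply]; ring

theorem cj_apply (r : Fin 5 → ℕ) (g : K) (A : Mt K) (a b : Fin 5) : cj r g A a b = g ^ r a * A a b * (g ^ r b)⁻¹ := rfl

theorem cj_trace (r : Fin 5 → ℕ) {g : K} (hg : g ≠ 0) (A : Mt K) : (cj r g A).trace = A.trace := by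
  rw [Matrix.trace, Matrix.trace]
  refine Finset.sum_congr rfl fun a _ => ?_
  rw [Matrix.diag_apply, Matrix.diag_apply, cj_apply]
  have := pow_ne_zero (r a) hg
  field_simp

theorem cj_inj (r : Fin 5 → ℕ) {g : K} (hg : g ≠ 0) {A : Mt K} (h : cj r g A = 0) : A = 0 := by
  ext a b
  have e := congrFun (congrFun h a) b
  rw [cj_apply, Matrix.zero_apply] at e
  have n1 := pow_ne_zero (r a) hg
  have n2 := inv_ne_zero (pow_ne_zero (r b) hg)
  rcases mul_eq_zero.1 e with h1 | h1
  · exact (mul_eq_zero.1 h1).resolve_left n1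
  · exact absurd h1 n2

/-- `diag (g ^ r)` -/
def dd (r : Fin 5 → ℕ) (g : K) : Mt K := Matrix.diagonal fun a => g ^ r a
def ddi (r : Fin 5 → ℕ) (g : K) : Mt K := Matrix.diagonal fun a => (g ^ r a)⁻¹

theorem dd_ddi (r : Fin 5 → ℕ) {g : K} (hg : g ≠ 0) : dd r g * ddi r g = 1 := by
  rw [dd, ddi, Matrix.diagonal_mul_diagonal, ← Matrix.diagonal_one]
  congr 1
  funext a
  exact mul_inv_cancel₀ (pow_ne_zero _ hg)

theorem ddi_dd (r : Fin 5 → ℕ) {g : K} (hg : g ≠ 0) : ddi r g * dd r g = 1 := by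
  rw [dd, ddi, Matrix.diagonal_mul_diagonal, ← Matrix.diagonal_one]
  congr 1
  funext a
  exact inv_mul_cancel₀ (pow_ne_zero _ hg)

theorem cj_eq (r : Fin 5 → ℕ) (g : K) (A : Mt K) : cj r g A = dd r g * A * ddi r g := by
  ext a b
  rw [cj_apply, dd, ddi, Matrix.mul_diagonal, Matrix.diagonal_mul]

theorem dd_tr (r : Fin 5 → ℕ) (g : K) : (dd r g)ᵀ = dd r g := Matrix.diagonal_transpose _
theorem ddi_tr (r : Fin 5 → ℕ) (g : K) : (ddi r g)ᵀ = ddi r g := Matrix.diagonal_transpose _

/-- the embedding in the scaled basis `E^t_ab = g ^ (r_a - r_b) s e_(w a b)` -/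
def iota (g : K) : Mt K × Mt K →ₗ[K] (chevE8.Idx → K) :=
  (io K).comp (LinearMap.prodMap (cj re0 g) (cj re1 g))

theorem iota_apply (g : K) (p : Mt K × Mt K) : iota g p = io K (cj re0 g p.1, cj re1 g p.2) := rfl

theorem supp_iota (g : K) (p : Mt K × Mt K) : Supp (iota g p) := supp_io _

theorem iota_inj [CharP K 3] {g : K} (hg : g ≠ 0) (p : Mt K × Mt K) (t0 : p.1.trace = 0) (t1 : p.2.trace = 0)
    (h : iota g p = 0) : p = 0 := by
  rw [iota_apply] at h
  obtain ⟨e0, e1⟩ := io_ker (by rw [cj_trace _ hg, t0]) (by rw [cj_trace _ hg, t1]) h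
  exact Prod.ext (cj_inj _ hg e0) (cj_inj _ hg e1)

/-- `A ↦ -q⁻¹ Aᵀ q` in the scaled basis -/
theorem cj_q (r : Fin 5 → ℕ) {g : K} (hg : g ≠ 0) (q q' A : Mt K) :
    -(q' * (cj r g A)ᵀ * q) = cj r g (-((ddi r g * q' * ddi r g) * Aᵀ * (dd r g * q * dd r g))) := by
  rw [cj_eq, cj_eq, Matrix.transpose_mul, Matrix.transpose_mul, dd_tr, ddi_tr, mul_neg, neg_mul]
  congr 1
  have h1 := dd_ddi r hg
  calc q' * (ddi r g * (Aᵀ * dd r g)) * q = 1 * q' * ddi r g * Aᵀ * dd r g * q * 1 := by simp only [mul_assoc, mul_one, one_mul]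
    _ = (dd r g * ddi r g) * q' * ddi r g * Aᵀ * dd r g * q * (dd r g * ddi r g) := by rw [h1]
    _ = _ := by simp only [mul_assoc]

end iota

/-! ## the frame -/

section frame
variable {K : Type} [Field K] [CharP K 3]

theorem three_zero : (3 : K) = 0 := by exact_mod_cast CharP.cast_eq_zero K 3

/-- the unit `w = g ^ 16` -/
def wU (g : K) (hg : g ^ 4 = 1 - g) : Kˣ := Units.mk0 (g ^ 16) (pow_ne_zero _ (g_ne hg))

theorem wU_pow {g : K} (hg : g ^ 4 = 1 - g) : wU g hg ^ 5 = 1 := by
  apply Units.ext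
  rw [Units.val_pow_eq_pow_val, Units.val_one]
  show (g ^ 16) ^ 5 = 1
  rw [← pow_mul]
  exact g80 hg three_zero

theorem wU_ne {g : K} (hg : g ^ 4 = 1 - g) : wU g hg ≠ 1 := by
  intro h
  have e : g ^ 16 = 1 := congrArg Units.val h
  have h3 : (3 : K) = 0 := three_zero
  have e1 : g ^ 4 = 1 - g := hg
  have e2 : g ^ 16 = (1 - g) ^ 4 := by
    rw [← e1, ← pow_mul]
  have e3 : (1 - g) ^ 4 = 1 - 4 * g + 6 * g ^ 2 - 4 * g ^ 3 + (1 - g) := by
    linear_combination e1
  -- `1 - 4 g + 6 g² - 4 g³ + 1 - g = 1`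
  have e4 : 1 + g - g ^ 3 = 0 := by
    linear_combination e - e2 - e3 + (2 * g - 2 * g ^ 2 + g ^ 3) * h3
  have e5 : g ^ 3 = 1 + g := by linear_combination -e4
  have e6 : g ^ 4 = g + g ^ 2 := by linear_combination g * e5
  have e7 : g ^ 2 = 1 - 2 * g := by linear_combination e1 - e6
  have e8 : g ^ 3 = g - 2 * g ^ 2 := by linear_combination g * e7
  have e9 : (1 : K) = 0 := by
    linear_combination -e7 - (g + 2) * (e8 - e5 - 2 * e7) + (g + 2) * (1 - g) * h3
  exact one_ne_zero e9

/-- the frame of helper879 -/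
theorem gframe {g : K} (hg : g ^ 4 = 1 - g) (x xi : Matrix chevE8.Idx chevE8.Idx K) (t : Matrix chevE8.Idx chevE8.Idx K)
    (q0 r0 q1 r1 : Mt K) (hxi : xi * x = 1)
    (hrel : Rel (Matrix.mulVecLin x) (Ym (wU g hg) (wU_pow hg)) (Matrix.mulVecLin t))
    (hsum : ∀ v : chevE8.Idx → K, Matrix.mulVecLin x v = v → Ym (wU g hg) (wU_pow hg) v = v →
      v + sX (Matrix.mulVecLin x) (Matrix.mulVecLin t v) = 0)
    (hxp : ∀ p : Mt K × Mt K, p.1.trace = 0 → p.2.trace = 0 → prj (x *ᵥ iota g p) = iota g (XP0 g p.1 p.2, XP1 g p.1 p.2))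
    (hxm : ∀ p : Mt K × Mt K, p.1.trace = 0 → p.2.trace = 0 → prj (xi *ᵥ iota g p) = iota g (XM0 g p.1 p.2, XM1 g p.1 p.2))
    (ht : ∀ A0 A1 : Mt K, A0.trace = 0 → A1.trace = 0 →
      t *ᵥ iota g (A0, A1) = iota g (-(r0 * A0ᵀ * q0), -(r1 * A1ᵀ * q1)))
    (h0 : r0 * q0 = 1) (h1 : r1 * q1 = 1) :
    GFrame g (Matrix.mulVecLin x) (Ym (wU g hg) (wU_pow hg)) (Matrix.mulVecLin t) (iota g) q0 r0 q1 r1 where
  hg := hg
  h3 := three_zero
  rel := hrel
  sum0 := hsum
  inj p t0 t1 h := iota_inj (g_ne hg) p t0 t1 h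
  fixY p _ _ := Ym_fix _ _ (supp_iota g p)
  xp p t0 t1 := by
    show ey (Ym (wU g hg) (wU_pow hg)) (x *ᵥ iota g p) = _
    rw [ey_prj three_zero (wU_pow hg) (wU_ne hg), hxp p t0 t1]
  xm p t0 t1 := by
    have e10 : (Matrix.mulVecLin x) ^ 10 = Matrix.mulVecLin xi := by
      have a1 := hrel.x11
      have a2 : Matrix.mulVecLin xi * Matrix.mulVecLin x = 1 := by
        rw [Module.End.mul_eq_comp, ← Matrix.mulVecLin_mul, hxi, Matrix.mulVecLin_one]; rfl
      calc (Matrix.mulVecLin x) ^ 10 = (Matrix.mulVecLin xi * Matrix.mulVecLin x) * (Matrix.mulVecLin x) ^ 10 := by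
            rw [a2, one_mul]
        _ = Matrix.mulVecLin xi * (Matrix.mulVecLin x) ^ 11 := by rw [mul_assoc, ← pow_succ']
        _ = _ := by rw [a1, mul_one]
    show ey (Ym (wU g hg) (wU_pow hg)) (((Matrix.mulVecLin x) ^ 10) (iota g p)) = _
    rw [e10, ey_prj three_zero (wU_pow hg) (wU_ne hg)]
    exact hxm p t0 t1
  tq p t0 t1 := ht p.1 p.2 t0 t1
  rq0 := h0
  rq1 := h1

/-- the same from the unscaled action -/
theorem ht_scaled {g : K} (hg : g ≠ 0) {t : Matrix chevE8.Idx chevE8.Idx K} {q0 r0 q1 r1 : Mt K}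
    (ht : ∀ A0 A1 : Mt K, A0.trace = 0 → A1.trace = 0 → t *ᵥ io K (A0, A1) = io K (-(r0 * A0ᵀ * q0), -(r1 * A1ᵀ * q1)))
    (A0 A1 : Mt K) (t0 : A0.trace = 0) (t1 : A1.trace = 0) :
    t *ᵥ iota g (A0, A1) = iota g (-((ddi re0 g * r0 * ddi re0 g) * A0ᵀ * (dd re0 g * q0 * dd re0 g)),
      -((ddi re1 g * r1 * ddi re1 g) * A1ᵀ * (dd re1 g * q1 * dd re1 g))) := by
  rw [iota_apply, ht _ _ (by rw [cj_trace _ hg, t0]) (by rw [cj_trace _ hg, t1]), iota_apply, cj_q re0 hg, cj_q re1 hg]

end frame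

end Cfsg.Agent.H576.E8L
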