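import Cfsg.Agent.H576.E8L.Fr
import Cfsg.Agent.H138.E8L.Inst
import Cfsg.Agent.H879.E83.PNine

/-!
# S5925, boxes F2 + G: from an element `T` of `E₈(K)` to the structure `PNine` (helper576)
-/

set_option autoImplicit false
set_option linter.unusedSectionVars false
set_option linter.unusedVariables false
set_option linter.style.longLine false
set_option linter.unusedSimpArgs false

namespace Cfsg.Agent.H576.E8L

open Matrix Cfsg Cfsg.Lie Cfsg.Agent.ChevalleyStructure Cfsg.Agent.ChevalleyStructure.Elts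
open Cfsg.Agent.H992.E8X Cfsg.Agent.H238.E8
open Cfsg.Agent.H879.E83
open Cfsg.Agent.BpExc.FamUntw (phi)

section
variable {K : Type} [Field K]

/-- the action on `L` -/
def En : ↥(chevE8.group K) →* Module.End K (chevE8.Idx → K) where
  toFun g := Matrix.mulVecLin ((g : GL chevE8.Idx K) : Matrix chevE8.Idx chevE8.Idx K)
  map_one' := by
    rw [Subgroup.coe_one, Units.val_one, Matrix.mulVecLin_one]; rfl
  map_mul' a b := by
    rw [Subgroup.coe_mul, Units.val_mul, Matrix.mulVecLin_mul]; rfl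

theorem En_apply (g : ↥(chevE8.group K)) (v : chevE8.Idx → K) :
    En g v = ((g : GL chevE8.Idx K) : Matrix chevE8.Idx chevE8.Idx K) *ᵥ v :=
  Matrix.mulVecLin_apply _ v

theorem En_YY (w : Kˣ) (h : w ^ 5 = 1) : En (YY w h) = Ym w h := rfl

theorem iota_Dg (g : K) (A0 A1 : Mt K) : iota g (A0, A1) =
    io K (Cfsg.Agent.H138.E8L.Dg g Cfsg.Agent.H138.E8L.e0 * A0 * Cfsg.Agent.H138.E8L.Di g Cfsg.Agent.H138.E8L.e0,
      Cfsg.Agent.H138.E8L.Dg g Cfsg.Agent.H138.E8L.e1 * A1 * Cfsg.Agent.H138.E8L.Di g Cfsg.Agent.H138.E8L.e1) := by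
  rw [iota_apply, cj_eq, cj_eq]
  have e : ∀ r : Fin 5 → ℕ, ddi r g = Cfsg.Agent.H138.E8L.Di g r := by
    intro r
    unfold ddi Cfsg.Agent.H138.E8L.Di
    congr 1
    funext a
    rw [inv_pow]
  rw [e, e]
  rfl

theorem Mh_eq (q : Mt K) : Cfsg.Agent.H138.E8L.Mh q = Cfsg.Agent.H879.E83.Mh q := by
  ext a b
  show (Cfsg.Agent.H138.E8L.J a : K) * (Cfsg.Agent.H138.E8L.J b : K) * q (Cfsg.Agent.H138.E8L.sg a) (Cfsg.Agent.H138.E8L.sg b) ^ 9 =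
    Jv a * Jv b * q (sgm a) (sgm b) ^ 9
  have h1 : ∀ a : Fin 5, (Cfsg.Agent.H138.E8L.J a : K) = Jv a := by
    intro a
    fin_cases a <;> simp [Cfsg.Agent.H138.E8L.J, Jv]
  have h2 : ∀ a : Fin 5, Cfsg.Agent.H138.E8L.sg a = sgm a := by decide
  rw [h1, h1, h2, h2]

theorem Q2_eq (q : Mt K) : Cfsg.Agent.H138.E8L.Q2 q = Cfsg.Agent.H879.E83.Q2 q := by
  ext a b
  show (Cfsg.Agent.H138.E8L.S (Cfsg.Agent.H138.E8L.tw a) : K) * (Cfsg.Agent.H138.E8L.S (Cfsg.Agent.H138.E8L.tw b) : K) *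
    q (Cfsg.Agent.H138.E8L.tw a) (Cfsg.Agent.H138.E8L.tw b) ^ 3 = Sv (2 * a) * Sv (2 * b) * q (2 * a) (2 * b) ^ 3
  have h1 : ∀ a : Fin 5, (Cfsg.Agent.H138.E8L.S a : K) = Sv a := by
    intro a
    fin_cases a <;> simp [Cfsg.Agent.H138.E8L.S, Sv]
  have h2 : ∀ a : Fin 5, Cfsg.Agent.H138.E8L.tw a = 2 * a := by decide
  rw [h1, h1, h2, h2]

variable [CharP K 3]

/-- the relations of `PSL₂(11)` in the group give `Rel` -/
theorem rel_En {x y t : ↥(chevE8.group K)} (hx : x ^ 11 = 1) (hy : y ^ 5 = 1) (ht : t * t = 1) (hyx : y * x = x ^ 3 * y)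
    (hty : t * y = y⁻¹ * t) (htxt : t * x * t = x⁻¹ * t * x⁻¹) : Rel (En x) (En y) (En t) := by
  have hxi : x⁻¹ = x ^ 10 := inv_eq_of_mul_eq_one_right (by rw [← pow_succ', hx])
  have hyi : y⁻¹ = y ^ 4 := inv_eq_of_mul_eq_one_right (by rw [← pow_succ', hy])
  refine ⟨?_, ?_, ?_, ?_, ?_, ?_, ?_⟩
  · rw [← map_pow, hx, map_one]
  · rw [← map_pow, hy, map_one]
  · rw [← map_mul, ht, map_one]
  · rw [← map_pow, ← map_mul, ← map_mul, hyx]
  · rw [← map_pow, ← map_mul, ← map_mul, hty, hyi]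
  · rw [← map_pow, ← map_mul, ← map_mul, ← map_mul, ← map_mul, htxt, hxi]
  · have h3 : (3 : K) = 0 := three_zero
    apply LinearMap.ext
    intro v
    have : (3 : Module.End K (chevE8.Idx → K)) v = (3 : K) • v := by
      have e : (3 : Module.End K (chevE8.Idx → K)) = algebraMap K _ 3 := (map_ofNat (algebraMap K _) 3).symm
      rw [e]; rfl
    rw [this, h3, zero_smul]; rfl

/-- the table: `pr_u ∘ x` and `pr_u ∘ x⁻¹` on `u` -/
structure Tbl (g : K) (x : ↥(chevE8.group K)) : Prop where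
  xp : ∀ p : Mt K × Mt K, p.1.trace = 0 → p.2.trace = 0 →
    prj (((x : GL chevE8.Idx K) : Matrix chevE8.Idx chevE8.Idx K) *ᵥ iota g p) = iota g (XP0 g p.1 p.2, XP1 g p.1 p.2)
  xm : ∀ p : Mt K × Mt K, p.1.trace = 0 → p.2.trace = 0 →
    prj (((x⁻¹ : ↥(chevE8.group K)) : GL chevE8.Idx K).1 *ᵥ iota g p) = iota g (XM0 g p.1 p.2, XM1 g p.1 p.2)

/-- **S5925, F2 + G.** -/
theorem pnine [IsAlgClosed K] {g : K} (hg : g ^ 4 = 1 - g) {x t : ↥(chevE8.group K)} (htab : Tbl g x)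
    (hx : x ^ 11 = 1) (ht : t * t = 1)
    (hyx : YY (wU g hg) (wU_pow hg) * x = x ^ 3 * YY (wU g hg) (wU_pow hg))
    (hy : YY (wU g hg) (wU_pow hg) ^ 5 = 1)
    (hty : t * YY (wU g hg) (wU_pow hg) = (YY (wU g hg) (wU_pow hg))⁻¹ * t)
    (htxt : t * x * t = x⁻¹ * t * x⁻¹)
    (hsum : ∀ v : chevE8.Idx → K, En x v = v → En (YY (wU g hg) (wU_pow hg)) v = v →
      v + sX (En x) (En t v) = 0)
    (hT : Cfsg.Agent.H183.E8F.NN K * phi chevE8 K 3 1 t = t * Cfsg.Agent.H183.E8F.NN K)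
    {q0 q1 : Matrix (Fin 5) (Fin 5) K} (h0 : IsUnit q0.det) (h1 : IsUnit q1.det) (hs0 : q0ᵀ = q0) (hs1 : q1ᵀ = q1)
    (hTio : ∀ A0 A1 : Matrix (Fin 5) (Fin 5) K, A0.trace = 0 → A1.trace = 0 →
      ((t : GL chevE8.Idx K) : Matrix chevE8.Idx chevE8.Idx K) *ᵥ io K (A0, A1) =
        io K (-(q0⁻¹ * A0ᵀ * q0), -(q1⁻¹ * A1ᵀ * q1))) :
    ∃ q : Mt K, PNine g q ∧ ∀ A0 A1 : Mt K, A0.trace = 0 → A1.trace = 0 →
      ((t : GL chevE8.Idx K) : Matrix chevE8.Idx chevE8.Idx K) *ᵥ iota g (A0, A1) =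
        iota g (-(Mh q * A0ᵀ * q), -(Q2 (Mh q) * A1ᵀ * Q2 q)) := by
  obtain ⟨q, hq, h81, hM1, hM2, hQ, hact⟩ := Cfsg.Agent.H138.E8L.f2 hT h0 h1 hs0 hs1 hTio hg
  have hact' : ∀ A0 A1 : Mt K, A0.trace = 0 → A1.trace = 0 →
      ((t : GL chevE8.Idx K) : Matrix chevE8.Idx chevE8.Idx K) *ᵥ iota g (A0, A1) =
        iota g (-(Mh q * A0ᵀ * q), -(Q2 (Mh q) * A1ᵀ * Q2 q)) := by
    intro A0 A1 a0 a1
    have := hact A0 A1 a0 a1
    rw [← iota_Dg, ← iota_Dg, Mh_eq, Q2_eq, Q2_eq] at this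
    exact this
  refine ⟨q, ?_, hact'⟩
  have hxi : (((x⁻¹ : ↥(chevE8.group K)) : GL chevE8.Idx K) : Matrix chevE8.Idx chevE8.Idx K) *
      ((x : GL chevE8.Idx K) : Matrix chevE8.Idx chevE8.Idx K) = 1 := by
    rw [← Units.val_mul, ← Subgroup.coe_mul, inv_mul_cancel, Subgroup.coe_one, Units.val_one]
  have hF := gframe hg ((x : GL chevE8.Idx K) : Matrix chevE8.Idx chevE8.Idx K)
    (((x⁻¹ : ↥(chevE8.group K)) : GL chevE8.Idx K) : Matrix chevE8.Idx chevE8.Idx K)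
    ((t : GL chevE8.Idx K) : Matrix chevE8.Idx chevE8.Idx K) q (Mh q) (Q2 q) (Q2 (Mh q)) hxi
    (rel_En hx hy ht hyx hty htxt) hsum htab.xp htab.xm hact' (by rw [← Mh_eq]; exact hM2)
    (by rw [← Mh_eq, ← Q2_eq, ← Q2_eq]; exact hQ)
  exact hF.pnine hq h81

end

end Cfsg.Agent.H576.E8L
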