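import Cfsg.Agent.H238.E8.Frame
import Cfsg.Agent.ChevalleyStructure.SparseEng

/-!
# S5925: `SL₅ × SL₅` acting on the root vectors of `E₈` outside the two `A₄` (helper576)

For the homomorphisms `ph1 K`, `ph2 K : SL₅(K) →* E₈(K)` of helper238 the `200` root vectors outside the two `A₄` form
strings of type `V`, `V*` (length 5) and `Λ² V`, `Λ² V*` (length 10); tables with signs (`st1V`, ... for `ph1`,
`st2V`, ... for `ph2`).  Main results: `ph1_V`, `ph1_Vd`, `ph1_L`, `ph1_Ld`, `ph2_V`, `ph2_Vd`, `ph2_L`, `ph2_Ld`.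
-/

set_option autoImplicit false
set_option linter.unusedSectionVars false
set_option linter.unusedVariables false
set_option linter.style.longLine false
set_option linter.unusedSimpArgs false

namespace Cfsg.Agent.H576.E8L

open Matrix Cfsg Cfsg.Lie Cfsg.Agent.ChevalleyStructure Cfsg.Agent.ChevalleyStructure.Elts
open Cfsg.Agent.H992.E8X Cfsg.Agent.H238.E8
open Cfsg.Agent.ChevalleyStructure.SparseEng (bvec act evalAct xMat_mulVec)

/-- strings of type `V` (first factor) -/
def st1V : List (List (ℤ × ℕ)) :=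
  [[(1, 78), (1, 56), (-1, 46), (1, 40), (-1, 30)],
   [(1, 79), (1, 57), (-1, 47), (1, 41), (-1, 31)],
   [(1, 80), (1, 58), (-1, 48), (1, 42), (-1, 32)],
   [(1, 81), (1, 59), (-1, 49), (1, 43), (-1, 33)],
   [(1, 82), (1, 60), (-1, 50), (1, 44), (-1, 34)],
   [(1, 83), (1, 61), (-1, 51), (1, 45), (-1, 35)],
   [(1, 226), (1, 219), (1, 214), (1, 210), (1, 200)],
   [(1, 227), (1, 220), (1, 215), (1, 211), (1, 201)],
   [(1, 228), (1, 221), (1, 216), (1, 212), (1, 202)],
   [(1, 229), (1, 222), (1, 217), (1, 213), (1, 203)]]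

/-- strings of type `V*` (first factor) -/
def st1Vd : List (List (ℤ × ℕ)) :=
  [[(1, 10), (1, 17), (1, 22), (1, 26), (1, 36)],
   [(1, 11), (1, 18), (1, 23), (1, 27), (1, 37)],
   [(1, 12), (1, 19), (1, 24), (1, 28), (1, 38)],
   [(1, 13), (1, 20), (1, 25), (1, 29), (1, 39)],
   [(-1, 156), (-1, 178), (1, 188), (-1, 194), (1, 204)],
   [(-1, 157), (-1, 179), (1, 189), (-1, 195), (1, 205)],
   [(-1, 158), (-1, 180), (1, 190), (-1, 196), (1, 206)],
   [(-1, 159), (-1, 181), (1, 191), (-1, 197), (1, 207)],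
   [(-1, 160), (-1, 182), (1, 192), (-1, 198), (1, 208)],
   [(-1, 161), (-1, 183), (1, 193), (-1, 199), (1, 209)]]

/-- strings of type `Λ² V` (first factor) -/
def st1L : List (List (List (ℤ × ℕ))) :=
  [[[(0, 0), (1, 21), (-1, 16), (1, 15), (-1, 14)], [(-1, 21), (0, 0), (1, 9), (-1, 8), (1, 6)], [(1, 16), (-1, 9), (0, 0), (1, 7), (-1, 5)], [(-1, 15), (1, 8), (-1, 7), (0, 0), (1, 4)], [(1, 14), (-1, 6), (1, 5), (-1, 4), (0, 0)]],
   [[(0, 0), (1, 184), (1, 174), (1, 170), (1, 165)], [(-1, 184), (0, 0), (-1, 152), (-1, 148), (-1, 137)], [(-1, 174), (1, 152), (0, 0), (-1, 143), (1, 131)], [(-1, 170), (1, 148), (1, 143), (0, 0), (-1, 126)], [(-1, 165), (1, 137), (-1, 131), (1, 126), (0, 0)]],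
   [[(0, 0), (1, 185), (1, 175), (1, 171), (1, 166)], [(-1, 185), (0, 0), (-1, 153), (-1, 149), (-1, 138)], [(-1, 175), (1, 153), (0, 0), (-1, 144), (1, 132)], [(-1, 171), (1, 149), (1, 144), (0, 0), (-1, 127)], [(-1, 166), (1, 138), (-1, 132), (1, 127), (0, 0)]],
   [[(0, 0), (1, 186), (1, 176), (1, 172), (1, 167)], [(-1, 186), (0, 0), (-1, 154), (-1, 150), (-1, 139)], [(-1, 176), (1, 154), (0, 0), (-1, 145), (1, 133)], [(-1, 172), (1, 150), (1, 145), (0, 0), (-1, 128)], [(-1, 167), (1, 139), (-1, 133), (1, 128), (0, 0)]],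
   [[(0, 0), (1, 187), (1, 177), (1, 173), (1, 168)], [(-1, 187), (0, 0), (-1, 155), (-1, 151), (-1, 140)], [(-1, 177), (1, 155), (0, 0), (-1, 146), (1, 134)], [(-1, 173), (1, 151), (1, 146), (0, 0), (-1, 129)], [(-1, 168), (1, 140), (-1, 134), (1, 129), (0, 0)]]]

/-- strings of type `Λ² V*` (first factor) -/
def st1Ld : List (List (List (ℤ × ℕ))) :=
  [[[(0, 0), (-1, 52), (-1, 62), (-1, 66), (-1, 71)], [(1, 52), (0, 0), (1, 84), (1, 88), (1, 99)], [(1, 62), (-1, 84), (0, 0), (1, 93), (-1, 105)], [(1, 66), (-1, 88), (-1, 93), (0, 0), (1, 110)], [(1, 71), (-1, 99), (1, 105), (-1, 110), (0, 0)]],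
   [[(0, 0), (-1, 53), (-1, 63), (-1, 67), (-1, 72)], [(1, 53), (0, 0), (1, 85), (1, 89), (1, 100)], [(1, 63), (-1, 85), (0, 0), (1, 94), (-1, 106)], [(1, 67), (-1, 89), (-1, 94), (0, 0), (1, 111)], [(1, 72), (-1, 100), (1, 106), (-1, 111), (0, 0)]],
   [[(0, 0), (-1, 54), (-1, 64), (-1, 68), (-1, 73)], [(1, 54), (0, 0), (1, 86), (1, 90), (1, 101)], [(1, 64), (-1, 86), (0, 0), (1, 95), (-1, 107)], [(1, 68), (-1, 90), (-1, 95), (0, 0), (1, 112)], [(1, 73), (-1, 101), (1, 107), (-1, 112), (0, 0)]],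
   [[(0, 0), (-1, 55), (-1, 65), (-1, 69), (-1, 74)], [(1, 55), (0, 0), (1, 87), (1, 91), (1, 102)], [(1, 65), (-1, 87), (0, 0), (1, 96), (-1, 108)], [(1, 69), (-1, 91), (-1, 96), (0, 0), (1, 113)], [(1, 74), (-1, 102), (1, 108), (-1, 113), (0, 0)]],
   [[(0, 0), (1, 218), (-1, 223), (1, 224), (-1, 225)], [(-1, 218), (0, 0), (1, 230), (-1, 231), (1, 233)], [(1, 223), (-1, 230), (0, 0), (1, 232), (-1, 234)], [(-1, 224), (1, 231), (-1, 232), (0, 0), (1, 235)], [(1, 225), (-1, 233), (1, 234), (-1, 235), (0, 0)]]]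

/-- strings of type `V` (second factor) -/
def st2V : List (List (ℤ × ℕ)) :=
  [[(1, 4), (1, 129), (1, 128), (1, 127), (1, 126)],
   [(1, 5), (1, 134), (1, 133), (1, 132), (1, 131)],
   [(1, 6), (1, 140), (1, 139), (1, 138), (1, 137)],
   [(1, 7), (1, 146), (1, 145), (1, 144), (1, 143)],
   [(1, 8), (-1, 151), (-1, 150), (-1, 149), (-1, 148)],
   [(1, 9), (1, 155), (1, 154), (1, 153), (1, 152)],
   [(1, 14), (1, 168), (1, 167), (1, 166), (1, 165)],
   [(1, 15), (-1, 173), (-1, 172), (-1, 171), (-1, 170)],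
   [(1, 16), (1, 177), (1, 176), (1, 175), (1, 174)],
   [(1, 21), (-1, 187), (-1, 186), (-1, 185), (-1, 184)]]

/-- strings of type `V*` (second factor) -/
def st2Vd : List (List (ℤ × ℕ)) :=
  [[(-1, 218), (1, 52), (1, 53), (1, 54), (1, 55)],
   [(1, 223), (1, 62), (1, 63), (1, 64), (1, 65)],
   [(-1, 224), (1, 66), (1, 67), (1, 68), (1, 69)],
   [(1, 225), (1, 71), (1, 72), (1, 73), (1, 74)],
   [(1, 230), (1, 84), (1, 85), (1, 86), (1, 87)],
   [(-1, 231), (1, 88), (1, 89), (1, 90), (1, 91)],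
   [(1, 232), (1, 93), (1, 94), (1, 95), (1, 96)],
   [(1, 233), (1, 99), (1, 100), (1, 101), (1, 102)],
   [(1, 234), (1, 105), (1, 106), (1, 107), (1, 108)],
   [(1, 235), (1, 110), (1, 111), (1, 112), (1, 113)]]

/-- strings of type `Λ² V` (second factor) -/
def st2L : List (List (List (ℤ × ℕ))) :=
  [[[(0, 0), (1, 13), (-1, 12), (1, 11), (-1, 10)], [(-1, 13), (0, 0), (1, 161), (1, 160), (1, 158)], [(1, 12), (-1, 161), (0, 0), (1, 159), (1, 157)], [(-1, 11), (-1, 160), (-1, 159), (0, 0), (1, 156)], [(1, 10), (-1, 158), (-1, 157), (-1, 156), (0, 0)]],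
   [[(0, 0), (1, 20), (-1, 19), (1, 18), (-1, 17)], [(-1, 20), (0, 0), (1, 183), (1, 182), (1, 180)], [(1, 19), (-1, 183), (0, 0), (1, 181), (1, 179)], [(-1, 18), (-1, 182), (-1, 181), (0, 0), (1, 178)], [(1, 17), (-1, 180), (-1, 179), (-1, 178), (0, 0)]],
   [[(0, 0), (1, 25), (-1, 24), (1, 23), (-1, 22)], [(-1, 25), (0, 0), (-1, 193), (-1, 192), (-1, 190)], [(1, 24), (1, 193), (0, 0), (-1, 191), (-1, 189)], [(-1, 23), (1, 192), (1, 191), (0, 0), (-1, 188)], [(1, 22), (1, 190), (1, 189), (1, 188), (0, 0)]],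
   [[(0, 0), (1, 29), (-1, 28), (1, 27), (-1, 26)], [(-1, 29), (0, 0), (1, 199), (1, 198), (1, 196)], [(1, 28), (-1, 199), (0, 0), (1, 197), (1, 195)], [(-1, 27), (-1, 198), (-1, 197), (0, 0), (1, 194)], [(1, 26), (-1, 196), (-1, 195), (-1, 194), (0, 0)]],
   [[(0, 0), (1, 39), (-1, 38), (1, 37), (-1, 36)], [(-1, 39), (0, 0), (-1, 209), (-1, 208), (-1, 206)], [(1, 38), (1, 209), (0, 0), (-1, 207), (-1, 205)], [(-1, 37), (1, 208), (1, 207), (0, 0), (-1, 204)], [(1, 36), (1, 206), (1, 205), (1, 204), (0, 0)]]]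

/-- strings of type `Λ² V*` (second factor) -/
def st2Ld : List (List (List (ℤ × ℕ))) :=
  [[[(0, 0), (-1, 200), (1, 201), (-1, 202), (1, 203)], [(1, 200), (0, 0), (1, 30), (1, 31), (1, 33)], [(-1, 201), (-1, 30), (0, 0), (1, 32), (1, 34)], [(1, 202), (-1, 31), (-1, 32), (0, 0), (1, 35)], [(-1, 203), (-1, 33), (-1, 34), (-1, 35), (0, 0)]],
   [[(0, 0), (1, 210), (-1, 211), (1, 212), (-1, 213)], [(-1, 210), (0, 0), (1, 40), (1, 41), (1, 43)], [(1, 211), (-1, 40), (0, 0), (1, 42), (1, 44)], [(-1, 212), (-1, 41), (-1, 42), (0, 0), (1, 45)], [(1, 213), (-1, 43), (-1, 44), (-1, 45), (0, 0)]],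
   [[(0, 0), (-1, 214), (1, 215), (-1, 216), (1, 217)], [(1, 214), (0, 0), (1, 46), (1, 47), (1, 49)], [(-1, 215), (-1, 46), (0, 0), (1, 48), (1, 50)], [(1, 216), (-1, 47), (-1, 48), (0, 0), (1, 51)], [(-1, 217), (-1, 49), (-1, 50), (-1, 51), (0, 0)]],
   [[(0, 0), (1, 219), (-1, 220), (1, 221), (-1, 222)], [(-1, 219), (0, 0), (1, 56), (1, 57), (1, 59)], [(1, 220), (-1, 56), (0, 0), (1, 58), (1, 60)], [(-1, 221), (-1, 57), (-1, 58), (0, 0), (1, 61)], [(1, 222), (-1, 59), (-1, 60), (-1, 61), (0, 0)]],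
   [[(0, 0), (1, 226), (-1, 227), (1, 228), (-1, 229)], [(-1, 226), (0, 0), (1, 78), (1, 79), (1, 81)], [(1, 227), (-1, 78), (0, 0), (1, 80), (1, 82)], [(-1, 228), (-1, 79), (-1, 80), (0, 0), (1, 83)], [(1, 229), (-1, 81), (-1, 82), (-1, 83), (0, 0)]]]


section gen
variable (K : Type*) [Field K]

/-- root vector with index `r` -/
def rv (r : ℕ) : chevE8.Idx → K := bvec chevE8 K (8 + r)

/-- signed root vector -/
def tm (p : ℤ × ℕ) : chevE8.Idx → K := (p.1 : K) • rv K p.2

variable {K}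

/-- action of a group element on a vector -/
def mv (g : ↥(chevE8.group K)) (w : chevE8.Idx → K) : chevE8.Idx → K :=
  ((g : GL chevE8.Idx K) : Matrix chevE8.Idx chevE8.Idx K) *ᵥ w

theorem mv_mul (g h : ↥(chevE8.group K)) (w : chevE8.Idx → K) : mv (g * h) w = mv g (mv h w) := by
  unfold mv
  rw [Subgroup.coe_mul, Units.val_mul, Matrix.mulVec_mulVec]

theorem mv_add (g : ↥(chevE8.group K)) (v w : chevE8.Idx → K) : mv g (v + w) = mv g v + mv g w :=
  Matrix.mulVec_add _ _ _

theorem mv_smul (g : ↥(chevE8.group K)) (c : K) (w : chevE8.Idx → K) : mv g (c • w) = c • mv g w :=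
  Matrix.mulVec_smul _ _ _

theorem mv_sum {ι : Type*} (s : Finset ι) (g : ↥(chevE8.group K)) (f : ι → chevE8.Idx → K) :
    mv g (∑ i ∈ s, f i) = ∑ i ∈ s, mv g (f i) := by
  classical
  induction s using Finset.induction_on with
  | empty => simp [mv]
  | insert a s ha ih => rw [Finset.sum_insert ha, Finset.sum_insert ha, mv_add, ih]

theorem mv_one (w : chevE8.Idx → K) : mv (1 : ↥(chevE8.group K)) w = w := by
  unfold mv
  rw [Subgroup.coe_one, Units.val_one, Matrix.one_mulVec]

theorem mv_X (r s : ℕ) (t : K) : mv (X r t) (rv K s) = evalAct t (act chevE8 r (8 + s)) := by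
  unfold mv rv
  rw [coe_X, coe_xG]
  exact xMat_mulVec r (8 + s) t

theorem std_all {φ : SpecialLinearGroup (Fin 5) K →* ↥(chevE8.group K)} {v : Fin 5 → (chevE8.Idx → K)}
    (h : ∀ (i j : Fin 5) (hij : i ≠ j) (c : K) (k : Fin 5),
      mv (φ (SpecialLinearGroup.transvection hij c)) (v k) = v k + if k = j then c • v i else 0)
    (A : SpecialLinearGroup (Fin 5) K) (k : Fin 5) : mv (φ A) (v k) = ∑ l, (A.1 l k) • v l := by
  revert k
  refine tv_ind (fun A => ∀ k, mv (φ A) (v k) = ∑ l, (A.1 l k) • v l) ?_ ?_ A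
  · intro i j hij c k
    rw [h]
    have e : ∀ l, (SpecialLinearGroup.transvection hij c).1 l k • v l
        = (if l = k then v l else 0) + (if i = l ∧ j = k then c • v l else 0) := by
      intro l
      show (Matrix.transvection i j c) l k • v l = _
      rw [Matrix.transvection, Matrix.add_apply, Matrix.one_apply, Matrix.single_apply, add_smul]
      congr 1
      · split_ifs <;> simp
      · split_ifs <;> simp
    rw [Finset.sum_congr rfl fun l _ => e l, Finset.sum_add_distrib, Finset.sum_ite_eq']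
    simp only [Finset.mem_univ, if_true]
    congr 1
    by_cases hk : k = j
    · rw [if_pos hk]
      rw [Finset.sum_eq_single i]
      · simp [hk]
      · intro b _ hb
        rw [if_neg]
        rintro ⟨h1, -⟩
        exact hb h1.symm
      · intro h1; exact absurd (Finset.mem_univ _) h1
    · rw [if_neg hk]
      symm
      apply Finset.sum_eq_zero
      intro b _
      rw [if_neg]
      rintro ⟨-, h1⟩
      exact hk h1.symm
  · intro A B hA hB k
    rw [map_mul, mv_mul, hB, mv_sum]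
    simp only [mv_smul, hA, Finset.smul_sum, smul_smul]
    rw [Finset.sum_comm]
    refine Finset.sum_congr rfl fun m _ => ?_
    rw [← Finset.sum_smul]
    congr 1
    show _ = (A.1 * B.1) m k
    rw [Matrix.mul_apply]
    exact Finset.sum_congr rfl fun l _ => mul_comm _ _

theorem tv_inv {i j : Fin 5} (hij : i ≠ j) (c : K) :
    (SpecialLinearGroup.transvection hij c)⁻¹ = SpecialLinearGroup.transvection hij (-c) := by
  rw [inv_eq_iff_mul_eq_one]
  apply Subtype.ext
  show Matrix.transvection i j c * Matrix.transvection i j (-c) = 1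
  rw [Matrix.transvection_mul_transvection_same i j hij, add_neg_cancel, Matrix.transvection_zero]

theorem dual_all {φ : SpecialLinearGroup (Fin 5) K →* ↥(chevE8.group K)} {v : Fin 5 → (chevE8.Idx → K)}
    (h : ∀ (i j : Fin 5) (hij : i ≠ j) (c : K) (k : Fin 5),
      mv (φ (SpecialLinearGroup.transvection hij c)) (v k) = v k + if k = i then (-c) • v j else 0)
    (A : SpecialLinearGroup (Fin 5) K) (k : Fin 5) : mv (φ A) (v k) = ∑ l, ((A⁻¹).1 k l) • v l := by
  revert k
  refine tv_ind (fun A => ∀ k, mv (φ A) (v k) = ∑ l, ((A⁻¹).1 k l) • v l) ?_ ?_ A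
  · intro i j hij c k
    rw [h, tv_inv]
    have e : ∀ l, (SpecialLinearGroup.transvection hij (-c)).1 k l • v l
        = (if k = l then v l else 0) + (if i = k ∧ j = l then (-c) • v l else 0) := by
      intro l
      show (Matrix.transvection i j (-c)) k l • v l = _
      rw [Matrix.transvection, Matrix.add_apply, Matrix.one_apply, Matrix.single_apply, add_smul]
      congr 1
      · split_ifs <;> simp
      · split_ifs <;> simp
    rw [Finset.sum_congr rfl fun l _ => e l, Finset.sum_add_distrib, Finset.sum_ite_eq]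
    simp only [Finset.mem_univ, if_true]
    congr 1
    by_cases hk : k = i
    · rw [if_pos hk]
      rw [Finset.sum_eq_single j]
      · simp [hk]
      · intro b _ hb
        rw [if_neg]
        rintro ⟨-, h1⟩
        exact hb h1.symm
      · intro h1; exact absurd (Finset.mem_univ _) h1
    · rw [if_neg hk]
      symm
      apply Finset.sum_eq_zero
      intro b _
      rw [if_neg]
      rintro ⟨h1, -⟩
      exact hk h1.symm
  · intro A B hA hB k
    rw [map_mul, mv_mul, hB, mv_sum]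
    simp only [mv_smul, hA, Finset.smul_sum, smul_smul]
    rw [Finset.sum_comm]
    refine Finset.sum_congr rfl fun m _ => ?_
    rw [← Finset.sum_smul]
    congr 1
    rw [_root_.mul_inv_rev]
    show _ = ((B⁻¹).1 * (A⁻¹).1) k m
    rw [Matrix.mul_apply]

/-- `Λ²`: the family `F p q` (antisymmetric in the applications) -/
theorem ext_all {φ : SpecialLinearGroup (Fin 5) K →* ↥(chevE8.group K)} {F : Fin 5 → Fin 5 → (chevE8.Idx → K)}
    (h : ∀ (i j : Fin 5) (hij : i ≠ j) (c : K) (p q : Fin 5),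
      mv (φ (SpecialLinearGroup.transvection hij c)) (F p q) =
        F p q + (if p = j then c • F i q else 0) + (if q = j then c • F p i else 0) +
          (if p = j ∧ q = j then (c * c) • F i i else 0))
    (A : SpecialLinearGroup (Fin 5) K) (p q : Fin 5) :
    mv (φ A) (F p q) = ∑ l, ∑ m, (A.1 l p * A.1 m q) • F l m := by
  revert p q
  refine tv_ind (fun A => ∀ p q, mv (φ A) (F p q) = ∑ l, ∑ m, (A.1 l p * A.1 m q) • F l m) ?_ ?_ A
  · intro i j hij c p q
    rw [h]
    have e : ∀ l k, (SpecialLinearGroup.transvection hij c).1 l k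
        = (if l = k then 1 else 0) + (if i = l ∧ j = k then c else 0) := by
      intro l k
      show (Matrix.transvection i j c) l k = _
      rw [Matrix.transvection, Matrix.add_apply, Matrix.one_apply, Matrix.single_apply]
    simp only [e]
    by_cases hp : p = j
    · by_cases hq : q = j
      · subst hp; subst hq
        simp only [add_mul, mul_add, add_smul, Finset.sum_add_distrib, ite_mul, mul_ite, one_mul, zero_mul, mul_zero,
          mul_one, ite_smul, zero_smul, one_smul, and_true, Finset.sum_ite_eq', Finset.sum_ite_eq, Finset.mem_univ,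
          if_true, and_self]
        abel
      · have hq' : ¬ j = q := fun h => hq h.symm
        subst hp
        simp only [add_mul, mul_add, add_smul, Finset.sum_add_distrib, ite_mul, mul_ite, one_mul, zero_mul, mul_zero,
          mul_one, ite_smul, zero_smul, one_smul, and_true, Finset.sum_ite_eq', Finset.sum_ite_eq, Finset.mem_univ,
          if_true, and_false, hq, hq', if_false, add_zero, Finset.sum_const_zero]
    · have hp' : ¬ j = p := fun h => hp h.symm
      by_cases hq : q = j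
      · subst hq
        simp only [add_mul, mul_add, add_smul, Finset.sum_add_distrib, ite_mul, mul_ite, one_mul, zero_mul, mul_zero,
          mul_one, ite_smul, zero_smul, one_smul, and_true, Finset.sum_ite_eq', Finset.sum_ite_eq, Finset.mem_univ,
          if_true, and_false, false_and, hp, hp', if_false, add_zero, Finset.sum_const_zero]
      · have hq' : ¬ j = q := fun h => hq h.symm
        simp only [add_mul, mul_add, add_smul, Finset.sum_add_distrib, ite_mul, mul_ite, one_mul, zero_mul, mul_zero,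
          mul_one, ite_smul, zero_smul, one_smul, and_true, Finset.sum_ite_eq', Finset.sum_ite_eq, Finset.mem_univ,
          if_true, and_false, false_and, hp, hp', hq, hq', if_false, add_zero, Finset.sum_const_zero]
  · intro A B hA hB p q
    rw [map_mul, mv_mul, hB, mv_sum]
    have e1 : ∀ l : Fin 5, mv (φ A) (∑ m, (B.1 l p * B.1 m q) • F l m)
        = ∑ m, ∑ l', ∑ m', (B.1 l p * B.1 m q * (A.1 l' l * A.1 m' m)) • F l' m' := by
      intro l
      rw [mv_sum]
      refine Finset.sum_congr rfl fun m _ => ?_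
      rw [mv_smul, hA, Finset.smul_sum]
      refine Finset.sum_congr rfl fun l' _ => ?_
      rw [Finset.smul_sum]
      exact Finset.sum_congr rfl fun m' _ => smul_smul _ _ _
    rw [Finset.sum_congr rfl fun l _ => e1 l]
    have e2 : ∀ l' m', ((A * B).1 l' p * (A * B).1 m' q)
        = ∑ l, ∑ m, (B.1 l p * B.1 m q * (A.1 l' l * A.1 m' m)) := by
      intro l' m'
      show (A.1 * B.1) l' p * (A.1 * B.1) m' q = _
      rw [Matrix.mul_apply, Matrix.mul_apply, Finset.sum_mul_sum]
      refine Finset.sum_congr rfl fun l _ => Finset.sum_congr rfl fun m _ => ?_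
      ring
    simp only [e2, Finset.sum_smul]
    -- reorder: Σ l Σ m Σ l' Σ m' = Σ l' Σ m' Σ l Σ m
    calc ∑ l, ∑ m, ∑ l', ∑ m', (B.1 l p * B.1 m q * (A.1 l' l * A.1 m' m)) • F l' m'
        = ∑ l, ∑ l', ∑ m, ∑ m', (B.1 l p * B.1 m q * (A.1 l' l * A.1 m' m)) • F l' m' :=
          Finset.sum_congr rfl fun l _ => Finset.sum_comm
      _ = ∑ l', ∑ l, ∑ m, ∑ m', (B.1 l p * B.1 m q * (A.1 l' l * A.1 m' m)) • F l' m' := Finset.sum_comm
      _ = ∑ l', ∑ l, ∑ m', ∑ m, (B.1 l p * B.1 m q * (A.1 l' l * A.1 m' m)) • F l' m' :=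
          Finset.sum_congr rfl fun l' _ => Finset.sum_congr rfl fun l _ => Finset.sum_comm
      _ = ∑ l', ∑ m', ∑ l, ∑ m, (B.1 l p * B.1 m q * (A.1 l' l * A.1 m' m)) • F l' m' :=
          Finset.sum_congr rfl fun l' _ => Finset.sum_comm

theorem evalAct_one (t : K) (a : ℕ) : evalAct (D := chevE8) t [(a, 1, 0)] = bvec chevE8 K a := by
  simp [evalAct]

theorem evalAct_two (t : K) (a b : ℕ) (m : ℤ) :
    evalAct (D := chevE8) t [(a, 1, 0), (b, m, 1)] = bvec chevE8 K a + ((m : K) * t) • bvec chevE8 K b := by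
  simp [evalAct]

/-- entry of a table -/
def g1 (v : List (ℤ × ℕ)) (k : Fin 5) : ℤ × ℕ := v.getD k.val (0, 0)

/-- entry of a table -/
def g2 (v : List (List (ℤ × ℕ))) (p q : Fin 5) : ℤ × ℕ := (v.getD p.val []).getD q.val (0, 0)

/-- check of a string of type `V` -/
def chkV (rt : Fin 5 → Fin 5 → ℕ) (sg : Fin 5 → Fin 5 → ℤ) (v : List (ℤ × ℕ)) : Bool :=
  decide (∀ k : Fin 5, (g1 v k).1 * (g1 v k).1 = 1) &&
  decide (∀ i j k : Fin 5, i ≠ j → sg i j * sg i j = 1 ∧ act chevE8 (rt i j) (8 + (g1 v k).2) =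
    if k = j then [(8 + (g1 v k).2, 1, 0), (8 + (g1 v i).2, sg i j * (g1 v k).1 * (g1 v i).1, 1)]
    else [(8 + (g1 v k).2, 1, 0)])

/-- check of a string of type `V*` -/
def chkVd (rt : Fin 5 → Fin 5 → ℕ) (sg : Fin 5 → Fin 5 → ℤ) (v : List (ℤ × ℕ)) : Bool :=
  decide (∀ k : Fin 5, (g1 v k).1 * (g1 v k).1 = 1) &&
  decide (∀ i j k : Fin 5, i ≠ j → sg i j * sg i j = 1 ∧ act chevE8 (rt i j) (8 + (g1 v k).2) =
    if k = i then [(8 + (g1 v k).2, 1, 0), (8 + (g1 v j).2, -(sg i j * (g1 v k).1 * (g1 v j).1), 1)]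
    else [(8 + (g1 v k).2, 1, 0)])

/-- check of a string of type `Λ² V` -/
def chkL (rt : Fin 5 → Fin 5 → ℕ) (sg : Fin 5 → Fin 5 → ℤ) (v : List (List (ℤ × ℕ))) : Bool :=
  decide (∀ p q : Fin 5, if p = q then (g2 v p q).1 = 0 else (g2 v p q).1 * (g2 v p q).1 = 1 ∧
    (g2 v q p).1 = -(g2 v p q).1 ∧ (g2 v q p).2 = (g2 v p q).2) &&
  decide (∀ i j p q : Fin 5, i ≠ j → p ≠ q → sg i j * sg i j = 1 ∧ act chevE8 (rt i j) (8 + (g2 v p q).2) =
    if p = j ∧ q ≠ i then [(8 + (g2 v p q).2, 1, 0), (8 + (g2 v i q).2, sg i j * (g2 v p q).1 * (g2 v i q).1, 1)]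
    else if q = j ∧ p ≠ i then [(8 + (g2 v p q).2, 1, 0), (8 + (g2 v p i).2, sg i j * (g2 v p q).1 * (g2 v p i).1, 1)]
    else [(8 + (g2 v p q).2, 1, 0)])

/-- check of a string of type `Λ² V*` -/
def chkLd (rt : Fin 5 → Fin 5 → ℕ) (sg : Fin 5 → Fin 5 → ℤ) (v : List (List (ℤ × ℕ))) : Bool :=
  decide (∀ p q : Fin 5, if p = q then (g2 v p q).1 = 0 else (g2 v p q).1 * (g2 v p q).1 = 1 ∧
    (g2 v q p).1 = -(g2 v p q).1 ∧ (g2 v q p).2 = (g2 v p q).2) &&
  decide (∀ i j p q : Fin 5, i ≠ j → p ≠ q → sg i j * sg i j = 1 ∧ act chevE8 (rt i j) (8 + (g2 v p q).2) =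
    if p = i ∧ q ≠ j then [(8 + (g2 v p q).2, 1, 0), (8 + (g2 v j q).2, -(sg i j * (g2 v p q).1 * (g2 v j q).1), 1)]
    else if q = i ∧ p ≠ j then [(8 + (g2 v p q).2, 1, 0), (8 + (g2 v p j).2, -(sg i j * (g2 v p q).1 * (g2 v p j).1), 1)]
    else [(8 + (g2 v p q).2, 1, 0)])

theorem st1V_ok : (st1V.all fun v => chkV rt1 sg1 v) = true := by decide +kernel
theorem st1Vd_ok : (st1Vd.all fun v => chkVd rt1 sg1 v) = true := by decide +kernel
theorem st1L_ok : (st1L.all fun v => chkL rt1 sg1 v) = true := by decide +kernel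
theorem st1Ld_ok : (st1Ld.all fun v => chkLd rt1 sg1 v) = true := by decide +kernel
theorem st2V_ok : (st2V.all fun v => chkV rt2 sg2 v) = true := by decide +kernel
theorem st2Vd_ok : (st2Vd.all fun v => chkVd rt2 sg2 v) = true := by decide +kernel
theorem st2L_ok : (st2L.all fun v => chkL rt2 sg2 v) = true := by decide +kernel
theorem st2Ld_ok : (st2Ld.all fun v => chkLd rt2 sg2 v) = true := by decide +kernel

section use
variable {rt : Fin 5 → Fin 5 → ℕ} {sg : Fin 5 → Fin 5 → ℤ} {φ : SpecialLinearGroup (Fin 5) K →* ↥(chevE8.group K)}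
  (hφ : ∀ (i j : Fin 5) (hij : i ≠ j) (c : K),
    φ (SpecialLinearGroup.transvection hij c) = X (rt i j) ((sg i j : K) * c))
include hφ

theorem use_V {v : List (ℤ × ℕ)} (hv : chkV rt sg v = true) (A : SpecialLinearGroup (Fin 5) K) (k : Fin 5) :
    mv (φ A) (tm K (g1 v k)) = ∑ l, (A.1 l k) • tm K (g1 v l) := by
  unfold chkV at hv
  rw [Bool.and_eq_true] at hv
  have h1 := of_decide_eq_true hv.1
  have h2 := of_decide_eq_true hv.2
  refine std_all (v := fun k => tm K (g1 v k)) (fun i j hij c k => ?_) A k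
  obtain ⟨h3, h4⟩ := h2 i j k hij
  rw [hφ]
  unfold tm
  rw [mv_smul, mv_X, h4]
  by_cases hk : k = j
  · rw [if_pos hk, if_pos hk, evalAct_two]
    have e1 : ((g1 v k).1 : K) * (((sg i j * (g1 v k).1 * (g1 v i).1 : ℤ) : K) * ((sg i j : K) * c)) =
        c * ((g1 v i).1 : K) := by
      have a1 : ((g1 v k).1 : K) * ((g1 v k).1 : K) = 1 := by exact_mod_cast congrArg (Int.cast (R := K)) (h1 k)
      have a2 : (sg i j : K) * (sg i j : K) = 1 := by exact_mod_cast congrArg (Int.cast (R := K)) h3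
      push_cast
      linear_combination (c * ((g1 v i).1 : K) * (sg i j : K) * (sg i j : K)) * a1 + (c * ((g1 v i).1 : K)) * a2
    rw [smul_add, smul_smul, e1, mul_smul]
    rfl
  · rw [if_neg hk, if_neg hk, evalAct_one, add_zero]
    rfl

theorem use_Vd {v : List (ℤ × ℕ)} (hv : chkVd rt sg v = true) (A : SpecialLinearGroup (Fin 5) K) (k : Fin 5) :
    mv (φ A) (tm K (g1 v k)) = ∑ l, ((A⁻¹).1 k l) • tm K (g1 v l) := by
  unfold chkVd at hv
  rw [Bool.and_eq_true] at hv
  have h1 := of_decide_eq_true hv.1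
  have h2 := of_decide_eq_true hv.2
  refine dual_all (v := fun k => tm K (g1 v k)) (fun i j hij c k => ?_) A k
  obtain ⟨h3, h4⟩ := h2 i j k hij
  rw [hφ]
  unfold tm
  rw [mv_smul, mv_X, h4]
  by_cases hk : k = i
  · rw [if_pos hk, if_pos hk, evalAct_two]
    have e1 : ((g1 v k).1 : K) * (((-(sg i j * (g1 v k).1 * (g1 v j).1) : ℤ) : K) * ((sg i j : K) * c)) =
        (-c) * ((g1 v j).1 : K) := by
      have a1 : ((g1 v k).1 : K) * ((g1 v k).1 : K) = 1 := by exact_mod_cast congrArg (Int.cast (R := K)) (h1 k)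
      have a2 : (sg i j : K) * (sg i j : K) = 1 := by exact_mod_cast congrArg (Int.cast (R := K)) h3
      push_cast
      linear_combination (-c * ((g1 v j).1 : K) * (sg i j : K) * (sg i j : K)) * a1 + (-c * ((g1 v j).1 : K)) * a2
    rw [smul_add, smul_smul, e1, mul_smul]
    rfl
  · rw [if_neg hk, if_neg hk, evalAct_one, add_zero]
    rfl

theorem use_L {v : List (List (ℤ × ℕ))} (hv : chkL rt sg v = true) (A : SpecialLinearGroup (Fin 5) K) (p q : Fin 5) :
    mv (φ A) (tm K (g2 v p q)) = ∑ l, ∑ m, (A.1 l p * A.1 m q) • tm K (g2 v l m) := by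
  unfold chkL at hv
  rw [Bool.and_eq_true] at hv
  have h1 := of_decide_eq_true hv.1
  have h2 := of_decide_eq_true hv.2
  have hz : ∀ p, tm K (g2 v p p) = 0 := by
    intro p
    have := h1 p p
    rw [if_pos rfl] at this
    unfold tm
    rw [this]; simp
  have hop : ∀ p q, tm K (g2 v q p) = - tm K (g2 v p q) := by
    intro p q
    by_cases hpq : p = q
    · subst hpq; rw [hz]; simp
    · have := h1 p q
      rw [if_neg hpq] at this
      unfold tm
      rw [this.2.1, this.2.2]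
      push_cast
      rw [neg_smul]
  refine ext_all (F := fun p q => tm K (g2 v p q)) (fun i j hij c p q => ?_) A p q
  by_cases hpq : p = q
  · subst hpq
    simp only [hz, and_self, smul_zero, ite_self, add_zero, zero_add]
    have : mv (φ (SpecialLinearGroup.transvection hij c)) (0 : chevE8.Idx → K) = 0 := by
      unfold mv; exact Matrix.mulVec_zero _
    rw [this]
    by_cases hp : p = j
    · subst hp
      rw [if_pos rfl, if_pos rfl, hop i p, smul_neg, add_neg_cancel]
    · rw [if_neg hp, if_neg hp, add_zero]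
  · obtain ⟨h3, h4⟩ := h2 i j p q hij hpq
    have h5 := h1 p q
    rw [if_neg hpq] at h5
    have a1 : ((g2 v p q).1 : K) * ((g2 v p q).1 : K) = 1 := by exact_mod_cast congrArg (Int.cast (R := K)) h5.1
    have a2 : (sg i j : K) * (sg i j : K) = 1 := by exact_mod_cast congrArg (Int.cast (R := K)) h3
    rw [hφ]
    have hL : ¬ (p = j ∧ q = j) := fun h => hpq (h.1.trans h.2.symm)
    rw [if_neg hL, add_zero]
    conv_lhs => unfold tm
    rw [mv_smul, mv_X, h4]
    by_cases hp : p = j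
    · have hq : ¬ q = j := fun h => hpq (hp.trans h.symm)
      rw [if_pos hp, if_neg hq, add_zero]
      by_cases hqi : q = i
      · have hh : ¬ (p = j ∧ q ≠ i) := fun h => h.2 hqi
        have hh2 : ¬ (q = j ∧ p ≠ i) := fun h => hq h.1
        rw [if_neg hh, if_neg hh2, evalAct_one, hqi, hz, smul_zero, add_zero]
        rfl
      · rw [if_pos ⟨hp, hqi⟩, evalAct_two]
        have e1 : ((g2 v p q).1 : K) * (((sg i j * (g2 v p q).1 * (g2 v i q).1 : ℤ) : K) * ((sg i j : K) * c)) =
            c * ((g2 v i q).1 : K) := by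
          push_cast
          linear_combination (c * ((g2 v i q).1 : K) * (sg i j : K) * (sg i j : K)) * a1 +
            (c * ((g2 v i q).1 : K)) * a2
        rw [smul_add, smul_smul, e1, mul_smul]
        rfl
    · rw [if_neg hp, add_zero]
      have hh : ¬ (p = j ∧ q ≠ i) := fun h => hp h.1
      rw [if_neg hh]
      by_cases hq : q = j
      · rw [if_pos hq]
        by_cases hpi : p = i
        · have hh2 : ¬ (q = j ∧ p ≠ i) := fun h => h.2 hpi
          rw [if_neg hh2, evalAct_one, hpi, hz, smul_zero, add_zero]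
          rfl
        · rw [if_pos ⟨hq, hpi⟩, evalAct_two]
          have e1 : ((g2 v p q).1 : K) * (((sg i j * (g2 v p q).1 * (g2 v p i).1 : ℤ) : K) * ((sg i j : K) * c)) =
              c * ((g2 v p i).1 : K) := by
            push_cast
            linear_combination (c * ((g2 v p i).1 : K) * (sg i j : K) * (sg i j : K)) * a1 +
              (c * ((g2 v p i).1 : K)) * a2
          rw [smul_add, smul_smul, e1, mul_smul]
          rfl
      · have hh2 : ¬ (q = j ∧ p ≠ i) := fun h => hq h.1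
        rw [if_neg hh2, if_neg hq, add_zero, evalAct_one]
        rfl

end use

end gen

end Cfsg.Agent.H576.E8L
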